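import Mathlib
import Cfsg.Agent.H126.PwO.Gen

/-!
# Elements of order five in `GL_4(q)`, `q = 2, 3`
-/

set_option autoImplicit false

namespace Cfsg.Agent.H649.PwO

open Module Cfsg.Agent.H126.PwO

variable {F V : Type*} [Field F] [Finite F] [AddCommGroup V] [Module F V] [FiniteDimensional F V]

theorem fv_of_pow (hF : Nat.card F = 2 ∨ Nat.card F = 3) (h4 : finrank F V = 4) {x : V ≃ₗ[F] V} (h : x ^ 5 = 1)
    (h1 : x ≠ 1) : Fv x := by
  classical
  have : Finite V := Module.finite_of_finite F
  have : Fintype V := Fintype.ofFinite V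
  have : Fact (Nat.Prime 5) := ⟨by norm_num⟩
  -- the fixed space
  let K : Submodule F V := LinearMap.ker ((x : V →ₗ[F] V) - LinearMap.id)
  have hK : ∀ {v}, v ∈ K ↔ x v = v := by
    intro v
    rw [LinearMap.mem_ker, LinearMap.sub_apply, LinearMap.id_apply, sub_eq_zero]
    rfl
  -- congruence
  have hmod : Nat.card V ≡ Nat.card K [MOD 5] := by
    have h2 := Equiv.Perm.card_fixedPoints_modEq (p := 5) (n := 1) (f := (x : V → V)) (by
      rw [pow_one]
      have h3 : ∀ j : ℕ, (show Function.End V from (x : V → V)) ^ j = ((x ^ j : V ≃ₗ[F] V) : V → V) := by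
        intro j
        induction j with
        | zero => rfl
        | succ j ih => rw [pow_succ', pow_succ', ih]; rfl
      exact (h3 5).trans (by rw [h]; rfl))
    rw [Nat.card_eq_fintype_card, Nat.card_eq_fintype_card]
    refine h2.trans ?_
    have h5 : Fintype.card (Function.fixedPoints (x : V → V)) = Fintype.card K :=
      Fintype.card_congr (Equiv.subtypeEquivRight fun v => hK.symm)
    rw [h5]
  rw [Module.natCard_eq_pow_finrank (K := F) (V := V), Module.natCard_eq_pow_finrank (K := F) (V := K), h4] at hmod
  have hle : finrank F K ≤ 4 := by rw [← h4]; exact Submodule.finrank_le K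
  have hK0 : finrank F K = 0 := by
    obtain ⟨d, hd⟩ : ∃ d, d = finrank F K := ⟨_, rfl⟩
    have hd4 : d ≠ 4 := by
      intro h5
      apply h1
      have h6 : K = ⊤ := Submodule.eq_top_of_finrank_eq (by rw [← hd, h5, h4])
      apply LinearEquiv.ext
      intro v
      exact hK.1 (by rw [h6]; trivial)
    rw [← hd] at hmod hle ⊢
    rcases hF with hF | hF <;> rw [hF] at hmod <;> interval_cases d <;>
      first
      | rfl
      | exact absurd rfl hd4
      | (exfalso; revert hmod; decide)
  have hKbot : K = ⊥ := Submodule.finrank_eq_zero.1 hK0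
  intro v
  have h2 : x (x (x (x v))) + x (x (x v)) + x (x v) + x v + v ∈ K := by
    rw [hK]
    have h3 : x (x (x (x (x v)))) = v := LinearEquiv.congr_fun h v
    simp only [map_add, h3]
    abel
  rw [hKbot] at h2
  exact (Submodule.mem_bot F).1 h2

end Cfsg.Agent.H649.PwO
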