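import Mathlib
import Cfsg.Agent.H126.PwO.Step

/-!
# Dimension seven: frames with a moved anisotropic vector

* `case_one` : `h` fixes the orthogonal complement `⟨e⟩` of the frame and moves `w j`: change `w' j`.
* `exists_moved` : `1 ≠ h ∈ Ω_7`: a frame of length three with Schur complement `1`, corner of determinant `1`,
  and no fixed vector in `perp`.
-/

set_option autoImplicit false
set_option linter.unusedSectionVars false

namespace Cfsg.Agent.H649.PwO

open QuadraticMap Matrix Cfsg.Agent.LieClassical.OrthCore Cfsg.Agent.LieClassical.OrthTrans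
  Cfsg.Agent.LieClassical.OrthFinite Cfsg.Agent.H140.OreO Cfsg.Agent.H126.PwO

variable {F V : Type*} [Field F] [AddCommGroup V] [Module F V] {n : ℕ} {Q : QuadraticForm F V}

theorem polar_O {h : V ≃ₗ[F] V} (hh : h ∈ O Q) (x y : V) : polar Q (h x) (h y) = polar Q x y := by
  rw [polar, polar, ← map_add, mem_O.1 hh, mem_O.1 hh, mem_O.1 hh]

theorem polar_sum_left (f : Fin n → V) (c : Fin n → F) (v : V) :
    polar Q (∑ i, c i • f i) v = ∑ i, c i * polar Q (f i) v := by
  rw [← polarBilin_apply_apply, map_sum, LinearMap.sum_apply]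
  refine Finset.sum_congr rfl fun i _ => ?_
  rw [map_smul, LinearMap.smul_apply, polarBilin_apply_apply, smul_eq_mul]

/-- vectors orthogonal to `e` -/
theorem expand {w w' : Fin n → V} (hf : Frame Q w w') (h2 : (2 : F) ≠ 0) {e : V} (he : e ∈ perp Q w w')
    (hspan : ∀ v ∈ perp Q w w', ∃ t : F, v = t • e) (hQe : Q e ≠ 0) {v : V} (hv : polar Q v e = 0) :
    v = ∑ i, polar Q v (w' i) • w i + ∑ i, polar Q v (w i) • w' i := by
  obtain ⟨t, ht⟩ := hspan _ (hf.proj_mem v)
  have h1 := congrArg (fun x => polar Q x e) ht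
  simp only [polar_sub_left, polar_add_left, Frame.polar_perp_l _ he, Frame.polar_perp_r _ he, hv, add_zero,
    sub_zero, polar_smul_left, polar_self] at h1
  have h3 : t * (2 * Q e) = 0 := by
    rw [smul_eq_mul, nsmul_eq_mul] at h1
    exact_mod_cast h1.symm
  have h4 : t = 0 := (mul_eq_zero.1 h3).resolve_right (mul_ne_zero h2 hQe)
  rw [h4, zero_smul, sub_eq_zero] at ht
  exact ht

theorem mulVec_corner (h : V ≃ₗ[F] V) (w u : Fin n → V) (y : Fin n → F) (i : Fin n) :
    (corner Q h w u *ᵥ y) i = polar Q (h (∑ k, y k • w k)) (u i) := by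
  rw [map_sum]
  simp only [map_smul]
  rw [polar_sum_left]
  simp only [mulVec, dotProduct, corner_apply]
  exact Finset.sum_congr rfl fun k _ => mul_comm _ _

/-- **The change of frame.** -/
theorem case_one [FiniteDimensional F V] {w w' : Fin n → V} (hf : Frame Q w w') (h2 : (2 : F) ≠ 0) {e : V}
    (he : e ∈ perp Q w w') (hfin : Module.finrank F V = 2 * n + 1)
    (hspan : ∀ v ∈ perp Q w w', ∃ t : F, v = t • e) (hQe : Q e ≠ 0) {h : V ≃ₗ[F] V}
    (hh : h ∈ O Q) (hhe : h e = e) (hdet : (corner Q h w w').det = 1) {j : Fin n} (hj : h (w j) ≠ w j) :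
    ∃ u' : Fin n → V, Frame Q w u' ∧ SchurOne Q h w u' ∧ (corner Q h w u').det = 1 ∧
      ∀ x ∈ perp Q w u', h x = x → x = 0 := by
  classical
  set A := corner Q h w w' with hA
  set C := corner Q h w w with hC
  -- the image of `W`
  have hW : ∀ y : Fin n → F, h (∑ k, y k • w k) = ∑ i, (A *ᵥ y) i • w i + ∑ i, (C *ᵥ y) i • w' i := by
    intro y
    have h3 : polar Q (h (∑ k, y k • w k)) e = 0 := by
      rw [← hhe, polar_O hh]
      exact Frame.polar_perp_l _ he
    simp only [hA, hC, mulVec_corner]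
    exact expand hf h2 he hspan hQe h3
  have hAC : ∀ y : Fin n → F, (A *ᵥ y) ⬝ᵥ (C *ᵥ y) = 0 := by
    intro y
    rw [← hf.polar_sum_sum]
    have h3 := mem_O.1 hh (∑ k, y k • w k)
    rw [hf.Q_sum_l, hW, Q_add, hf.Q_sum_l, hf.Q_sum_r, zero_add, zero_add] at h3
    exact h3
  have hAu : IsUnit A.det := by rw [hdet]; exact isUnit_one
  set y₀ : Fin n → F := A⁻¹ *ᵥ Pi.single j 1 with hy₀
  have hAy₀ : A *ᵥ y₀ = Pi.single j 1 := by
    rw [hy₀, mulVec_mulVec, Matrix.mul_nonsing_inv _ hAu, one_mulVec]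
  have hCy₀ : (C *ᵥ y₀) j = 0 := by
    have h3 := hAC y₀
    rw [hAy₀, single_one_dotProduct] at h3
    exact h3
  have hej : polar Q e (w j) = 0 := by rw [polar_comm]; exact (he j).1
  have hej' : ∀ i, polar Q e (w' i) = 0 := fun i => by rw [polar_comm]; exact (he i).2
  have heje : ∀ i, polar Q e (w i) = 0 := fun i => by rw [polar_comm]; exact (he i).1
  -- the new frame
  let u' : Fin n → V := Function.update w' j (w' j + e - Q e • w j)
  have hu'j : u' j = w' j + e - Q e • w j := Function.update_self _ _ _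
  have hu'i : ∀ {i}, i ≠ j → u' i = w' i := fun hi => Function.update_of_ne hi _ _
  have hQu : Q (w' j + e - Q e • w j) = 0 := by
    rw [sub_eq_add_neg, Q_add, Q_add, QuadraticMap.map_neg, QuadraticMap.map_smul, hf.sr, hf.sl, polar_neg_right, polar_add_left,
      polar_smul_right, polar_smul_right, polar_comm Q (w' j) e, hej', polar_comm Q (w' j) (w j), hf.lr, hej,
      if_pos rfl]
    simp
  have hpol : ∀ i, polar Q (w i) (u' j) = if i = j then 1 else 0 := by
    intro i
    rw [hu'j, sub_eq_add_neg, polar_add_right, polar_add_right, polar_neg_right, polar_smul_right, hf.lr, hf.ll,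
      (he i).1]
    simp
  have hf' : Frame Q w u' := by
    refine ⟨hf.sl, fun i => ?_, hf.ll, fun i k => ?_, fun i k => ?_⟩
    · by_cases hi : i = j
      · rw [hi, hu'j, hQu]
      · rw [hu'i hi, hf.sr]
    · have key : ∀ i, i ≠ j → polar Q (w' i) (w' j + e - Q e • w j) = 0 := by
        intro i hi
        rw [sub_eq_add_neg, polar_add_right, polar_add_right, polar_neg_right, polar_smul_right, hf.rr,
          (he i).2, polar_comm Q (w' i) (w j), hf.lr, if_neg (fun h => hi h.symm)]
        simp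
      by_cases hi : i = j
      · by_cases hk : k = j
        · rw [hi, hk, hu'j, polar_self, hQu, smul_zero]
        · rw [hi, hu'j, hu'i hk, polar_comm, key k hk]
      · by_cases hk : k = j
        · rw [hk, hu'j, hu'i hi, key i hi]
        · rw [hu'i hi, hu'i hk, hf.rr]
    · by_cases hk : k = j
      · rw [hk, hpol]
      · rw [hu'i hk, hf.lr]
  -- the new orthogonal complement
  set e' : V := e - (2 * Q e) • w j with he'
  have he'mem : e' ∈ perp Q w u' := by
    intro i
    constructor
    · rw [he', sub_eq_add_neg, polar_add_right, polar_neg_right, polar_smul_right, (he i).1, hf.ll]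
      simp
    · rw [polar_comm, he', sub_eq_add_neg, polar_add_left, polar_neg_left, polar_smul_left]
      by_cases hi : i = j
      · rw [hi, hpol, if_pos rfl, hu'j, sub_eq_add_neg, polar_add_right, polar_add_right, polar_neg_right,
          polar_smul_right, hej', hej, polar_self]
        simp [two_mul]
      · rw [hu'i hi, hej', hf.lr, if_neg (fun h => hi h.symm)]
        simp
  have he'0 : e' ≠ 0 := by
    intro h0
    have h3 := congrArg (fun x => polar Q x e) h0
    simp only [he', polar_sub_left, polar_smul_left, (he j).1, smul_zero, sub_zero, polar_self,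
      polar_zero_left] at h3
    rw [nsmul_eq_mul] at h3
    exact mul_ne_zero h2 hQe (by exact_mod_cast h3)
  have hspan' : ∀ v ∈ perp Q w u', ∃ t : F, v = t • e' := by
    intro v hv
    have h3 : Module.finrank F (perp Q w u') = 1 := by
      have := hf'.finrank_perp
      omega
    have h4 := (finrank_eq_one_iff_of_nonzero' (⟨e', he'mem⟩ : perp Q w u')
      (fun h0 => he'0 (congrArg Subtype.val h0))).1 h3 ⟨v, hv⟩
    obtain ⟨t, ht⟩ := h4
    exact ⟨t, (congrArg Subtype.val ht).symm⟩
  have hhe' : h e' ≠ e' := by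
    intro h0
    apply hj
    rw [he', map_sub, map_smul, hhe] at h0
    have h3 : (2 * Q e) • (h (w j)) = (2 * Q e) • w j := by
      have := sub_right_injective h0
      exact this
    exact smul_right_injective V (mul_ne_zero h2 hQe) h3
  refine ⟨u', hf', ?_, ?_, ?_⟩
  · -- Schur complement
    intro v hv
    obtain ⟨t, rfl⟩ := hspan' v hv
    refine ⟨t • (fun i => (-(2 * Q e)) * y₀ i + (if i = j then 2 * Q e else 0)),
      t • ((-(2 * Q e)) • (C *ᵥ y₀)), ?_⟩
    have h3 : ∀ c : Fin n → F, ∑ i, (t • c) i • w i = t • ∑ i, c i • w i := by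
      intro c
      rw [Finset.smul_sum]
      refine Finset.sum_congr rfl fun i _ => ?_
      rw [Pi.smul_apply, smul_eq_mul, mul_smul]
    have h4 : ∀ c : Fin n → F, ∑ i, (t • c) i • u' i = t • ∑ i, c i • u' i := by
      intro c
      rw [Finset.smul_sum]
      refine Finset.sum_congr rfl fun i _ => ?_
      rw [Pi.smul_apply, smul_eq_mul, mul_smul]
    rw [h3, h4, ← smul_add, ← smul_add, map_smul]
    congr 1
    have h5 : ∑ i, ((-(2 * Q e)) * y₀ i + (if i = j then 2 * Q e else 0)) • w i =
        (-(2 * Q e)) • ∑ i, y₀ i • w i + (2 * Q e) • w j := by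
      simp only [add_smul, Finset.sum_add_distrib, mul_smul, ← Finset.smul_sum, ite_smul, zero_smul,
        Finset.sum_ite_eq', Finset.mem_univ, if_true]
    have h6 : ∑ i, ((-(2 * Q e)) • (C *ᵥ y₀)) i • u' i = (-(2 * Q e)) • ∑ i, (C *ᵥ y₀) i • w' i := by
      rw [Finset.smul_sum]
      refine Finset.sum_congr rfl fun i _ => ?_
      by_cases hi : i = j
      · rw [hi, Pi.smul_apply, hCy₀, smul_zero, zero_smul, zero_smul, smul_zero]
      · rw [hu'i hi, Pi.smul_apply, smul_eq_mul, mul_smul]
    rw [h5, h6, he']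
    have h7 : e - (2 * Q e) • w j + (-(2 * Q e) • ∑ i, y₀ i • w i + (2 * Q e) • w j) =
        e + (-(2 * Q e)) • ∑ i, y₀ i • w i := by abel
    rw [h7, map_add, map_smul, hhe, hW, hAy₀]
    have h8 : ∑ i, (Pi.single j (1 : F) : Fin n → F) i • w i = w j := by
      simp [Pi.single_apply]
    rw [h8, smul_add]
    rw [neg_smul]
    abel
  · -- determinant
    have h3 : corner Q h w u' = A.updateRow j (∑ k, ((if k = j then 1 else 0) - Q e * (C * A⁻¹) j k) • A k) := by
      ext i k
      by_cases hi : i = j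
      · subst hi
        rw [updateRow_self, corner_apply, hu'j, sub_eq_add_neg, polar_add_right, polar_add_right, polar_neg_right,
          polar_smul_right]
        have h4 : polar Q (h (w k)) e = 0 := by
          rw [← hhe, polar_O hh]
          exact (he k).1
        have h5 : (∑ l, ((if l = i then 1 else 0) - Q e * (C * A⁻¹) i l) • A l) k =
            A i k - Q e * C i k := by
          have h6 : C i k = ∑ l, (C * A⁻¹) i l * A l k := by
            rw [← Matrix.mul_apply, Matrix.mul_assoc, Matrix.nonsing_inv_mul _ hAu, Matrix.mul_one]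
          rw [h6, Finset.sum_apply, Finset.mul_sum]
          simp only [Pi.smul_apply, smul_eq_mul, sub_mul, Finset.sum_sub_distrib, ite_mul, one_mul, zero_mul,
            Finset.sum_ite_eq', Finset.mem_univ, if_true, mul_assoc]
        rw [h4, h5]
        simp only [hA, hC, corner_apply, smul_eq_mul, add_zero]
        ring
      · rw [updateRow_ne hi, corner_apply, hu'i hi]
        rfl
    rw [h3, det_updateRow_sum, hdet, if_pos rfl]
    have h4 : (C * A⁻¹) j j = (C *ᵥ y₀) j := by
      rw [hy₀, mulVec_mulVec]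
      simp
    rw [h4, hCy₀]
    simp
  · intro x hx hxx
    obtain ⟨t, rfl⟩ := hspan' x hx
    rw [map_smul, ← sub_eq_zero, ← smul_sub] at hxx
    rw [(smul_eq_zero.1 hxx).resolve_right (sub_ne_zero.2 hhe'), zero_smul]

/-- **Dimension seven.** -/
theorem exists_moved [Finite F] [FiniteDimensional F V] (h2 : (2 : F) ≠ 0) (hQ : Nondeg Q)
    (hd : Module.finrank F V = 7) {h : V ≃ₗ[F] V} (hh : h ∈ Om Q) (h1 : h ≠ 1) :
    ∃ w w' : Fin 3 → V, Frame Q w w' ∧ SchurOne Q h w w' ∧ (corner Q h w w').det = 1 ∧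
      ∀ e ∈ perp Q w w', h e = e → e = 0 := by
  have hO : h ∈ O Q := Om_le hh
  -- not a scalar
  have hs : ∀ c : F, ∃ v, h v ≠ c • v := by
    intro c
    by_contra hcon
    push Not at hcon
    obtain ⟨v, hv⟩ : ∃ v, Q v ≠ 0 := by
      by_contra hcon'
      push Not at hcon'
      have : Nontrivial V := Module.nontrivial_of_finrank_pos (R := F) (by omega)
      obtain ⟨x, hx⟩ := exists_ne (0 : V)
      exact hx (hQ x fun y => by rw [polar, hcon', hcon', hcon']; simp)
    have h3 := mem_O.1 hO v
    rw [hcon, QuadraticMap.map_smul, smul_eq_mul] at h3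
    have h4 : c * c = 1 := mul_right_cancel₀ hv (by rw [h3, one_mul])
    have h5 : LinearMap.det (h : V →ₗ[F] V) = 1 := H141.SpinFacts.det_eq_one' hh
    have h6 : (h : V →ₗ[F] V) = c • LinearMap.id := by
      ext v
      exact hcon v
    rw [h6, LinearMap.det_smul, LinearMap.det_id, hd, mul_one] at h5
    have h7 : c = 1 := by
      have : c ^ 7 = c := by
        calc c ^ 7 = (c * c) ^ 3 * c := by ring
          _ = c := by rw [h4, one_pow, one_mul]
      rw [← this, h5]
    apply h1
    apply LinearEquiv.ext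
    intro v
    rw [hcon, h7, one_smul]
    rfl
  obtain ⟨m, hm3, hm, hm', w, w', hf, hS, hdet, -⟩ := H434.Corn.exists_baseCorner hQ (by omega) hh hs
  have hm3' : m = 3 := by omega
  subst hm3'
  have hfp : Module.finrank F (perp Q w w') = 1 := by
    have := hf.finrank_perp
    omega
  obtain ⟨⟨e, he⟩, he0, hspan0⟩ := finrank_eq_one_iff'.1 hfp
  have hspan : ∀ v ∈ perp Q w w', ∃ t : F, v = t • e := by
    intro v hv
    obtain ⟨t, ht⟩ := hspan0 ⟨v, hv⟩
    exact ⟨t, (congrArg Subtype.val ht).symm⟩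
  have hQe : Q e ≠ 0 := by
    intro h0
    apply he0
    apply hf.nondeg_res hQ
    rintro ⟨y, hy⟩
    obtain ⟨t, rfl⟩ := hspan y hy
    change polar Q e (t • e) = 0
    rw [polar_smul_right, polar_self, h0, smul_zero, smul_zero]
  by_cases hhe : h e = e
  swap
  · refine ⟨w, w', hf, hS, hdet, fun x hx hxx => ?_⟩
    obtain ⟨t, rfl⟩ := hspan x hx
    rw [map_smul, ← sub_eq_zero, ← smul_sub] at hxx
    rw [(smul_eq_zero.1 hxx).resolve_right (sub_ne_zero.2 hhe), zero_smul]
  by_cases hw : ∃ j, h (w j) ≠ w j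
  · obtain ⟨j, hj⟩ := hw
    obtain ⟨u', h3, h4, h5, h6⟩ := case_one hf h2 he (by omega) hspan hQe hO hhe hdet hj
    exact ⟨w, u', h3, h4, h5, h6⟩
  push Not at hw
  have hmem : ∀ {v}, v ∈ perp Q w' w ↔ v ∈ perp Q w w' := fun {v} =>
    ⟨fun h i => ⟨(h i).2, (h i).1⟩, fun h i => ⟨(h i).2, (h i).1⟩⟩
  have hc : corner Q h w' w = 1 := by
    ext i k
    rw [corner_apply, ← hw i, polar_O hO, hf.symm.lr, Matrix.one_apply]
    by_cases hik : i = k
    · rw [if_pos hik, if_pos hik.symm]
    · rw [if_neg hik, if_neg (fun h => hik h.symm)]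
  by_cases hw' : ∃ j, h (w' j) ≠ w' j
  · obtain ⟨j, hj⟩ := hw'
    obtain ⟨u', h3, h4, h5, h6⟩ := case_one hf.symm h2 (hmem.2 he) (by omega)
      (fun v hv => hspan v (hmem.1 hv)) hQe hO hhe (by rw [hc, det_one]) hj
    exact ⟨w', u', h3, h4, h5, h6⟩
  push Not at hw'
  exfalso
  apply h1
  apply LinearEquiv.ext
  intro v
  obtain ⟨t, ht⟩ := hspan _ (hf.proj_mem v)
  have h3 : v = t • e + (∑ i, polar Q v (w' i) • w i + ∑ i, polar Q v (w i) • w' i) := by
    rw [← ht]; abel
  rw [h3]
  simp only [map_add, map_smul, map_sum, hhe, hw, hw']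
  rfl

end Cfsg.Agent.H649.PwO
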