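import Mathlib
import Cfsg.Agent.H126.PwO.Gen
import Cfsg.Agent.H886.Inv.LU
import Cfsg.Agent.H649.PwO.Moved

/-!
# Shortening a frame by one hyperbolic pair with identity corner

* `nw`, `nw'` : change of basis of a frame.
* `exists_basis` : a matrix of determinant one (`1` or not scalar) has a conjugate whose lower right block has
  determinant one and is `1` or not scalar.
* `shrink` : the statement of helper126.
-/

set_option autoImplicit false
set_option linter.unusedSectionVars false

namespace Cfsg.Agent.H649.PwO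

open QuadraticMap Matrix Cfsg.Agent.LieClassical.OrthCore Cfsg.Agent.LieClassical.OrthTrans
  Cfsg.Agent.LieClassical.OrthFinite Cfsg.Agent.H140.OreO Cfsg.Agent.H126.PwO Module Cfsg.Agent.H141.Ore
  Cfsg.Agent.H886.Inv

variable {F V : Type*} [Field F] [AddCommGroup V] [Module F V] {n k : ℕ} {Q : QuadraticForm F V}

theorem polar_sum_right (v : V) (f : Fin n → V) (c : Fin n → F) :
    polar Q v (∑ i, c i • f i) = ∑ i, c i * polar Q v (f i) := by
  rw [polar_comm, polar_sum_left]
  exact Finset.sum_congr rfl fun i _ => by rw [polar_comm]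

section Basis

variable (b : Basis (Fin n) F (Fin n → F))

/-- new frame, left -/
noncomputable def nw (w : Fin n → V) : Fin n → V := fun j => ∑ i, (b j) i • w i

/-- new frame, right -/
noncomputable def nw' (w' : Fin n → V) : Fin n → V := fun j => ∑ i, b.coord j (Pi.single i 1) • w' i

theorem single_smul' (x : Fin n → F) (i : Fin n) : Pi.single i (x i) = x i • (Pi.single i 1 : Fin n → F) := by
  rw [← Pi.single_smul, smul_eq_mul, mul_one]

theorem coord_sum (x : Fin n → F) (j : Fin n) : ∑ i, x i * b.coord j (Pi.single i 1) = b.coord j x := by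
  conv_rhs => rw [← Finset.univ_sum_single x, map_sum]
  refine Finset.sum_congr rfl fun i _ => ?_
  rw [single_smul', map_smul, smul_eq_mul]

theorem sum_nw (w : Fin n → V) (y : Fin n → F) : ∑ j, b.repr y j • nw b w j = ∑ i, y i • w i := by
  have h1 : ∀ i, y i = ∑ j, b.repr y j * (b j) i := by
    intro i
    have h2 := congrArg (fun z : Fin n → F => z i) (b.sum_repr y)
    simp only [Finset.sum_apply, Pi.smul_apply, smul_eq_mul] at h2
    exact h2.symm
  simp only [nw, Finset.smul_sum, smul_smul]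
  rw [Finset.sum_comm]
  refine Finset.sum_congr rfl fun i _ => ?_
  rw [← Finset.sum_smul, ← h1]

theorem sum_nw' (w' : Fin n → V) (d : Fin n → F) : ∑ j, (d ⬝ᵥ b j) • nw' b w' j = ∑ i, d i • w' i := by
  have h1 : ∀ i, d i = ∑ j, (d ⬝ᵥ b j) * b.coord j (Pi.single i 1) := by
    intro i
    have h2 := congrArg (fun z : Fin n → F => d ⬝ᵥ z) (b.sum_repr (Pi.single i 1))
    simp only [dotProduct_single, mul_one, dotProduct_sum, dotProduct_smul, smul_eq_mul] at h2
    rw [← h2]
    exact Finset.sum_congr rfl fun j _ => mul_comm _ _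
  simp only [nw', Finset.smul_sum, smul_smul]
  rw [Finset.sum_comm]
  refine Finset.sum_congr rfl fun i _ => ?_
  rw [← Finset.sum_smul, ← h1]

variable {w w' : Fin n → V}

theorem frame_nw (hf : Frame Q w w') : Frame Q (nw b w) (nw' b w') := by
  refine ⟨fun i => hf.Q_sum_l _ _, fun i => hf.Q_sum_r _ _, fun i j => ?_, fun i j => ?_, fun i j => ?_⟩
  · rw [nw, nw, polar_sum_left]
    refine Finset.sum_eq_zero fun l _ => ?_
    rw [polar_sum_right]
    simp only [hf.ll, mul_zero, Finset.sum_const_zero]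
  · rw [nw', nw', polar_sum_left]
    refine Finset.sum_eq_zero fun l _ => ?_
    rw [polar_sum_right]
    simp only [hf.rr, mul_zero, Finset.sum_const_zero]
  · rw [nw, nw', hf.polar_sum_sum, dotProduct, coord_sum, Basis.coord_apply, Basis.repr_self,
      Finsupp.single_apply]

theorem corner_nw (g : V ≃ₗ[F] V) (l j : Fin n) :
    corner Q g (nw b w) (nw' b w') l j = b.coord l (corner Q g w w' *ᵥ b j) := by
  rw [corner_apply, nw', polar_sum_right, ← coord_sum]
  refine Finset.sum_congr rfl fun i _ => ?_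
  rw [mulVec_corner, mul_comm]
  rfl

theorem mem_perp_nw {v : V} (h : v ∈ perp Q (nw b w) (nw' b w')) : v ∈ perp Q w w' := by
  intro i
  constructor
  · have h1 := sum_nw b w (Pi.single i 1)
    have h2 : ∑ l, (Pi.single i 1 : Fin n → F) l • w l = w i := by simp [Pi.single_apply]
    rw [h2] at h1
    rw [← h1, polar_sum_left]
    exact Finset.sum_eq_zero fun l _ => by rw [(h l).1, mul_zero]
  · have h1 := sum_nw' b w' (Pi.single i 1)
    have h2 : ∑ l, (Pi.single i 1 : Fin n → F) l • w' l = w' i := by simp [Pi.single_apply]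
    rw [h2] at h1
    rw [← h1, polar_sum_left]
    exact Finset.sum_eq_zero fun l _ => by rw [(h l).2, mul_zero]

theorem schur_nw {g : V ≃ₗ[F] V} (hS : SchurOne Q g w w') : SchurOne Q g (nw b w) (nw' b w') := by
  intro v hv
  obtain ⟨c, d, h⟩ := hS v (mem_perp_nw b hv)
  refine ⟨b.repr c, fun j => d ⬝ᵥ b j, ?_⟩
  rw [sum_nw, sum_nw', h]

end Basis

/-! ### The choice of the basis -/

theorem exists_basis {A : Matrix (Fin (k + 1)) (Fin (k + 1)) F} (hdet : A.det = 1)
    (hA : A = 1 ∨ ∀ c : F, A ≠ c • (1 : Matrix (Fin (k + 1)) (Fin (k + 1)) F)) :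
    ∃ b : Basis (Fin (k + 1)) F (Fin (k + 1) → F),
      (Matrix.of fun i j : Fin k => b.coord i.succ (A *ᵥ b j.succ)).det = 1 ∧
      ((Matrix.of fun i j : Fin k => b.coord i.succ (A *ᵥ b j.succ)) = 1 ∨
        ∀ c : F, (Matrix.of fun i j : Fin k => b.coord i.succ (A *ᵥ b j.succ)) ≠
          c • (1 : Matrix (Fin k) (Fin k) F)) := by
  rcases hA with rfl | hA
  · have h1 : (Matrix.of fun i j : Fin k => (Pi.basisFun F (Fin (k + 1))).coord i.succ
        ((1 : Matrix (Fin (k + 1)) (Fin (k + 1)) F) *ᵥ (Pi.basisFun F (Fin (k + 1))) j.succ)) = 1 := by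
      ext i j
      rw [Matrix.of_apply, one_mulVec, Basis.coord_apply, Basis.repr_self, Finsupp.single_apply, Matrix.one_apply]
      by_cases hij : i = j
      · rw [if_pos hij, if_pos (by rw [hij])]
      · rw [if_neg hij, if_neg (fun h => hij (Fin.succ_injective _ h).symm)]
    exact ⟨Pi.basisFun F _, by rw [h1, det_one], Or.inl h1⟩
  have hAu : IsUnit A.det := by rw [hdet]; exact isUnit_one
  have hAA : ∀ v, A *ᵥ (A⁻¹ *ᵥ v) = v := fun v => by
    rw [mulVec_mulVec, Matrix.mul_nonsing_inv _ hAu, one_mulVec]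
  have hAA' : ∀ v, A⁻¹ *ᵥ (A *ᵥ v) = v := fun v => by
    rw [mulVec_mulVec, Matrix.nonsing_inv_mul _ hAu, one_mulVec]
  set S : Module.End F (Fin (k + 1) → F) := Matrix.toLin' A⁻¹ with hSdef
  have hSa : ∀ v, S v = A⁻¹ *ᵥ v := fun v => Matrix.toLin'_apply _ _
  have hSdet : LinearMap.det S = 1 := by
    rw [hSdef, LinearMap.det_toLin', Matrix.det_nonsing_inv, hdet, Ring.inverse_one]
  have hns : NonScalar S := by
    intro a
    by_contra hcon
    push Not at hcon
    have h1 : ∀ v, v = a • (A *ᵥ v) := by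
      intro v
      rw [← mulVec_smul, ← hcon v, hSa]
      rw [hAA]
    have ha : a ≠ 0 := by
      rintro rfl
      have := congrFun (h1 (Pi.single 0 1)) 0
      simp at this
    apply hA a⁻¹
    apply Matrix.toLin'.injective
    apply LinearMap.ext
    intro v
    rw [Matrix.toLin'_apply, map_smul, Matrix.toLin'_one, LinearMap.smul_apply, LinearMap.id_apply]
    nth_rewrite 2 [h1 v]
    rw [smul_smul, inv_mul_cancel₀ ha, one_smul]
  obtain ⟨φ, v, hv, hSv, hT⟩ := exists_pivot S hSdet hns
  have hfin : finrank F (LinearMap.ker φ) = k := by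
    have h1 := finrank_ker_functional φ v hv
    rw [finrank_fin_fun] at h1
    omega
  let b₀ : Basis (Fin k) F (LinearMap.ker φ) := Module.finBasisOfFinrankEq F _ hfin
  let bb : Basis (Fin (k + 1)) F (Fin (k + 1) → F) := Basis.mkFinCons v b₀ (by
    intro c x hx h0
    have h1 := congrArg φ h0
    rw [map_add, map_smul, hv, LinearMap.mem_ker.1 hx, map_zero, smul_eq_mul, mul_one, add_zero] at h1
    exact h1) (by
    intro z
    refine ⟨-φ z, ?_⟩
    rw [LinearMap.mem_ker, map_add, map_smul, hv, smul_eq_mul, mul_one, add_neg_cancel])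
  have hbb : ⇑bb = Fin.cons v ((↑) ∘ b₀) := Basis.coe_mkFinCons _ _ _ _
  have hbb0 : bb 0 = v := by rw [hbb]; rfl
  have hbbs : ∀ j : Fin k, bb j.succ = (b₀ j : Fin (k + 1) → F) := fun j => by rw [hbb]; rfl
  have hcoord : ∀ (i : Fin k) (y : Fin (k + 1) → F), bb.coord i.succ y = b₀.coord i (proj φ v hv y) := by
    intro i y
    have h1 : bb.coord i.succ = b₀.coord i ∘ₗ proj φ v hv := by
      apply bb.ext
      intro j
      refine Fin.cases ?_ (fun j => ?_) j
      · rw [Basis.coord_apply, Basis.repr_self, Finsupp.single_apply, if_neg (Fin.succ_ne_zero i).symm,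
          LinearMap.comp_apply, hbb0, proj_self, map_zero]
      · rw [Basis.coord_apply, Basis.repr_self, Finsupp.single_apply, LinearMap.comp_apply, hbbs, proj_coe,
          Basis.coord_apply, Basis.repr_self, Finsupp.single_apply]
        by_cases hij : j = i
        · rw [if_pos hij, if_pos (by rw [hij])]
        · rw [if_neg hij, if_neg (fun h => hij (Fin.succ_injective _ h))]
    rw [h1]
    rfl
  let A' : Module.End F (LinearMap.ker φ) := proj φ v hv ∘ₗ Matrix.toLin' A ∘ₗ (LinearMap.ker φ).subtype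
  have hA' : ∀ w, A' w = proj φ v hv (A *ᵥ (w : Fin (k + 1) → F)) := fun w => rfl
  have hM : (Matrix.of fun i j : Fin k => bb.coord i.succ (A *ᵥ bb j.succ)) = LinearMap.toMatrix b₀ b₀ A' := by
    ext i j
    rw [Matrix.of_apply, hcoord, hbbs, LinearMap.toMatrix_apply, hA', Basis.coord_apply]
  have hinv : ∀ w, schur S φ v hSv (A' w) = w := by
    intro w
    apply Subtype.ext
    rw [coe_schur, hA', coe_proj, hSa, hSa, mulVec_sub, mulVec_smul, hAA', ← hSa, map_sub, map_smul,
      LinearMap.mem_ker.1 w.2, hSv]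
    simp
  refine ⟨bb, ?_, ?_⟩
  · rw [hM, LinearMap.det_toMatrix]
    have h1 : schur S φ v hSv * A' = 1 := LinearMap.ext hinv
    have h2 := congrArg LinearMap.det h1
    rw [map_mul, map_one, det_schur S φ v hv hSv, hSdet, one_mul] at h2
    exact h2
  · rw [hM]
    rcases hT with hT | hT
    · right
      intro c hc
      have h1 : ∀ w, A' w = c • w := by
        intro w
        have h2 : A' = c • LinearMap.id := by
          apply (LinearMap.toMatrix b₀ b₀).injective
          rw [hc, map_smul, LinearMap.toMatrix_id]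
        rw [h2]; rfl
      by_cases hc0 : c = 0
      · obtain ⟨w, hw⟩ := hT 0
        apply hw
        have h3 := hinv w
        rw [h1, hc0, zero_smul, map_zero] at h3
        rw [← h3, map_zero, smul_zero]
      · obtain ⟨w, hw⟩ := hT c⁻¹
        apply hw
        have h3 := hinv w
        rw [h1, map_smul] at h3
        nth_rewrite 2 [← h3]
        rw [smul_smul, inv_mul_cancel₀ hc0, one_smul]
    · left
      have h1 : A' = LinearMap.id := by
        apply LinearMap.ext
        intro w
        have h3 := hinv w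
        rw [hT] at h3
        exact h3
      rw [h1, LinearMap.toMatrix_id]

/-! ### The first pair -/

theorem isSchur_apply {w w' : Fin n → V} {hf : Frame Q w w'} {g : V ≃ₗ[F] V}
    {g₁ : perp Q w w' ≃ₗ[F] perp Q w w'} (h : IsSchur hf g g₁) {v v' : perp Q w w'} {c d : Fin n → F}
    (e : g ((v : V) + ∑ i, c i • w i) = v' + ∑ i, d i • w' i) : g₁ v = v' := by
  apply h v v' c d
  have h1 : hf.toModel.symm (c, v, 0) = (v : V) + ∑ i, c i • w i := by
    rw [hf.toModel_symm_apply]
    simp [add_comm]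
  have h2 : hf.toModel.symm (0, v', d) = (v' : V) + ∑ i, d i • w' i := by
    rw [hf.toModel_symm_apply]
    simp
  rw [autE_apply, h1, e, ← h2, LinearEquiv.apply_symm_apply]

theorem frame_succ {W W' : Fin (k + 1) → V} (hf : Frame Q W W') :
    Frame Q (fun j : Fin k => W j.succ) (fun j : Fin k => W' j.succ) :=
  ⟨fun i => hf.sl _, fun i => hf.sr _, fun i j => hf.ll _ _, fun i j => hf.rr _ _, fun i j => by
    rw [hf.lr]
    by_cases hij : i = j
    · rw [if_pos hij, if_pos (by rw [hij])]
    · rw [if_neg hij, if_neg (fun h => hij (Fin.succ_injective _ h))]⟩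

theorem shrink_aux {W W' : Fin (k + 1) → V} (hf : Frame Q W W') {g : V ≃ₗ[F] V} (hS : SchurOne Q g W W')
    {x : Fin (k + 1) → F} (hx0 : x 0 = 1) (hx : corner Q g W W' *ᵥ x = Pi.single 0 1)
    (hu : Frame Q (fun j : Fin k => W j.succ) (fun j : Fin k => W' j.succ))
    {g₁ : perp Q (fun j : Fin k => W j.succ) (fun j : Fin k => W' j.succ) ≃ₗ[F]
      perp Q (fun j : Fin k => W j.succ) (fun j : Fin k => W' j.succ)} (hg₁ : IsSchur hu g g₁) :
    ∃ e e' : Fin 1 → perp Q (fun j : Fin k => W j.succ) (fun j : Fin k => W' j.succ),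
      Frame (res Q (fun j : Fin k => W j.succ) (fun j : Fin k => W' j.succ)) e e' ∧
      corner (res Q (fun j : Fin k => W j.succ) (fun j : Fin k => W' j.succ)) g₁ e e' = 1 ∧
      SchurOne (res Q (fun j : Fin k => W j.succ) (fun j : Fin k => W' j.succ)) g₁ e e' ∧
      ∀ v ∈ perp (res Q (fun j : Fin k => W j.succ) (fun j : Fin k => W' j.succ)) e e', (v : V) ∈ perp Q W W' := by
  have he : W 0 ∈ perp Q (fun j : Fin k => W j.succ) (fun j : Fin k => W' j.succ) := fun i =>
    ⟨hf.ll _ _, by rw [polar_comm, hf.lr, if_neg (Fin.succ_ne_zero i).symm]⟩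
  have he' : W' 0 ∈ perp Q (fun j : Fin k => W j.succ) (fun j : Fin k => W' j.succ) := fun i =>
    ⟨by rw [hf.lr, if_neg (Fin.succ_ne_zero i)], hf.rr _ _⟩
  have hperp : ∀ v ∈ perp (res Q (fun j : Fin k => W j.succ) (fun j : Fin k => W' j.succ))
      (fun _ : Fin 1 => ⟨W 0, he⟩) (fun _ : Fin 1 => ⟨W' 0, he'⟩), (v : V) ∈ perp Q W W' := by
    intro v hv i
    refine Fin.cases ?_ (fun i => ?_) i
    · exact hv 0
    · exact v.2 i
  refine ⟨fun _ => ⟨W 0, he⟩, fun _ => ⟨W' 0, he'⟩, ?_, ?_, ?_, hperp⟩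
  · refine ⟨fun i => hf.sl 0, fun i => hf.sr 0, fun i j => hf.ll 0 0, fun i j => hf.rr 0 0, fun i j => ?_⟩
    rw [Subsingleton.elim i j, if_pos rfl]
    have := hf.lr 0 0
    rw [if_pos rfl] at this
    exact this
  · -- the corner
    set y : V := ∑ i, x i • W i with hy
    have hc : ∀ i, polar Q (g y) (W' i) = (Pi.single 0 1 : Fin (k + 1) → F) i := by
      intro i
      rw [← hx, mulVec_corner]
    set v' : V := g y - ∑ j : Fin k, polar Q (g y) (W j.succ) • W' j.succ with hv'
    have hv'm : v' ∈ perp Q (fun j : Fin k => W j.succ) (fun j : Fin k => W' j.succ) := by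
      intro i
      constructor
      · rw [hv', polar_sub_right, polar_sum_right (W i.succ) (fun j : Fin k => W' j.succ), polar_comm Q _ (g y)]
        simp only [hf.lr, Fin.succ_inj, mul_ite, mul_one, mul_zero, Finset.sum_ite_eq, Finset.mem_univ, if_true,
          sub_self]
      · rw [hv', polar_sub_right, polar_sum_right (W' i.succ) (fun j : Fin k => W' j.succ), polar_comm Q _ (g y),
          hc]
        simp only [hf.rr, mul_zero, Finset.sum_const_zero, sub_zero]
        rw [Pi.single_eq_of_ne (Fin.succ_ne_zero i)]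
    have hg : g₁ ⟨W 0, he⟩ = ⟨v', hv'm⟩ := by
      apply isSchur_apply hg₁ (c := fun j => x j.succ) (d := fun j => polar Q (g y) (W j.succ))
      change g (W 0 + _) = v' + _
      rw [hv', sub_add_cancel, hy, Fin.sum_univ_succ, hx0, one_smul]
    ext i j
    rw [corner_apply, Subsingleton.elim i j, Matrix.one_apply_eq]
    change polar Q (g₁ ⟨W 0, he⟩ : V) (W' 0) = 1
    rw [hg]
    change polar Q v' (W' 0) = 1
    rw [hv', polar_sub_left, hc, polar_sum_left (fun j : Fin k => W' j.succ)]
    simp only [hf.rr, mul_zero, Finset.sum_const_zero, sub_zero]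
    rw [Pi.single_eq_same]
  · intro v hv
    obtain ⟨c, d, h⟩ := hS v (hperp v hv)
    refine ⟨fun _ => c 0, fun _ => d 0, ?_⟩
    apply isSchur_apply hg₁ (c := fun j => c j.succ) (d := fun j => d j.succ)
    rw [Fin.sum_univ_succ, Fin.sum_univ_succ] at h
    simp only [Finset.univ_unique, Finset.sum_singleton, Submodule.coe_add, Submodule.coe_smul]
    rw [add_assoc, add_assoc, h]

/-- **Shortening a frame.** -/
theorem shrink [FiniteDimensional F V] (hk : 1 ≤ k) {w w' : Fin (k + 1) → V} (hf : Frame Q w w')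
    {g : V ≃ₗ[F] V} (hg : g ∈ O Q) (hS : SchurOne Q g w w') (hdet : (corner Q g w w').det = 1)
    (hA : corner Q g w w' = 1 ∨ ∀ c : F, corner Q g w w' ≠ c • (1 : Matrix (Fin (k + 1)) (Fin (k + 1)) F)) :
    ∃ (u u' : Fin k → V) (hu : Frame Q u u'), (corner Q g u u').det = 1 ∧
      (corner Q g u u' = 1 ∨ ∀ c : F, corner Q g u u' ≠ c • (1 : Matrix (Fin k) (Fin k) F)) ∧
      ∀ g₁ ∈ O (res Q u u'), IsSchur hu g g₁ → ∃ e e' : Fin 1 → perp Q u u',
        Frame (res Q u u') e e' ∧ corner (res Q u u') g₁ e e' = 1 ∧ SchurOne (res Q u u') g₁ e e' ∧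
          ∀ v ∈ perp (res Q u u') e e', (v : V) ∈ perp Q w w' := by
  obtain ⟨b, hb1, hb2⟩ := exists_basis hdet hA
  have hF := frame_nw b hf
  have hc : corner Q g (fun j : Fin k => nw b w j.succ) (fun j : Fin k => nw' b w' j.succ) =
      Matrix.of fun i j : Fin k => b.coord i.succ (corner Q g w w' *ᵥ b j.succ) := by
    ext i j
    rw [Matrix.of_apply, ← corner_nw]
    rfl
  have hB : corner Q g (nw b w) (nw' b w') = LinearMap.toMatrix b b (Matrix.toLin' (corner Q g w w')) := by
    ext i j
    rw [corner_nw, LinearMap.toMatrix_apply, Matrix.toLin'_apply, Basis.coord_apply]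
  have hBd : (corner Q g (nw b w) (nw' b w')).det = 1 := by
    rw [hB, LinearMap.det_toMatrix, LinearMap.det_toLin', hdet]
  have hBu : IsUnit (corner Q g (nw b w) (nw' b w')).det := by rw [hBd]; exact isUnit_one
  refine ⟨fun j => nw b w j.succ, fun j => nw' b w' j.succ, frame_succ hF, by rw [hc, hb1], by rw [hc]; exact hb2,
    fun g₁ _ hg₁ => ?_⟩
  obtain ⟨e, e', h1, h2, h3, h4⟩ := shrink_aux hF (schur_nw b hS)
    (x := (corner Q g (nw b w) (nw' b w'))⁻¹ *ᵥ Pi.single 0 1) (by
      rw [mulVec_single_one]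
      change (corner Q g (nw b w) (nw' b w'))⁻¹ 0 0 = 1
      rw [Matrix.inv_def, hBd, Ring.inverse_one, one_smul, adjugate_fin_succ_eq_det_submatrix]
      have h5 : (corner Q g (nw b w) (nw' b w')).submatrix (Fin.succAbove 0) (Fin.succAbove 0) =
          Matrix.of fun i j : Fin k => b.coord i.succ (corner Q g w w' *ᵥ b j.succ) := by
        rw [← hc]
        ext i j
        simp [corner_apply]
      rw [h5, hb1]
      simp) (by
      rw [mulVec_mulVec, Matrix.mul_nonsing_inv _ hBu, one_mulVec]) (frame_succ hF) hg₁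
  exact ⟨e, e', h1, h2, h3, fun v hv => mem_perp_nw b (h4 v hv)⟩

end Cfsg.Agent.H649.PwO
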