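import Mathlib
import Cfsg.Agent.H649.PwO.Shrink
import Cfsg.Agent.H649.PwO.FvPow
import Cfsg.Agent.H170.PW.MinusFour

/-!
# S2465, orthogonal groups of minus type over fields of order `2` and `3`: the frame
-/

set_option autoImplicit false
set_option linter.unusedSectionVars false

namespace Cfsg.Agent.H649.PwO

open QuadraticMap Matrix Cfsg.Agent.LieClassical.OrthCore Cfsg.Agent.LieClassical.OrthTrans
  Cfsg.Agent.LieClassical.OrthFinite Cfsg.Agent.H140.OreO Cfsg.Agent.H126.PwO Module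

variable {F V : Type*} [Field F] [AddCommGroup V] [Module F V] {k : ℕ} {Q : QuadraticForm F V}

/-- **A frame of length `m - 1` whose Schur complement is a product of two elements of order five.** -/
theorem minus_frame [Finite F] [FiniteDimensional F V] (hF : Nat.card F = 2 ∨ Nat.card F = 3) (hQ : Nondeg Q)
    (hk : 1 ≤ k) (hV : finrank F V = 2 * (k + 1) + 2) {w w' : Fin (k + 1) → V} (hf : Frame Q w w')
    (han : ∀ v ∈ perp Q w w', Q v = 0 → v = 0)
    {g : V ≃ₗ[F] V} (hg : g ∈ O Q) (hS : SchurOne Q g w w') (hdet : (corner Q g w w').det = 1)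
    (hA : corner Q g w w' = 1 ∨ ∀ c : F, corner Q g w w' ≠ c • (1 : Matrix (Fin (k + 1)) (Fin (k + 1)) F)) :
    ∃ (u u' : Fin k → V) (hu : Frame Q u u'), (corner Q g u u').det = 1 ∧
      (corner Q g u u' = 1 ∨ ∀ c : F, corner Q g u u' ≠ c • (1 : Matrix (Fin k) (Fin k) F)) ∧
      ∀ g₁ ∈ O (res Q u u'), IsSchur hu g g₁ → ∃ x ∈ O (res Q u u'), ∃ y ∈ O (res Q u u'),
        g₁ = x * y ∧ Fv x ∧ Fv y := by
  obtain ⟨u, u', hu, h1, h2, h3⟩ := shrink hk hf hg hS hdet hA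
  refine ⟨u, u', hu, h1, h2, fun g₁ hg₁ hsch => ?_⟩
  obtain ⟨e, e', h4, h5, h6, h7⟩ := h3 g₁ hg₁ hsch
  have h8 : finrank F (perp Q u u') = 4 := by
    have := hu.finrank_perp
    omega
  obtain ⟨X, Y, hX, hY, hXY, hX5, hY5, hX1, hY1⟩ := H170.PW.minus_four hF (hu.nondeg_res hQ) h8 h4
    (fun v hv hv0 => Subtype.ext (han v (h7 v hv) hv0)) hg₁ h5 h6
  exact ⟨X, E_le_O hX, Y, E_le_O hY, hXY, fv_of_pow hF h8 hX5 hX1, fv_of_pow hF h8 hY5 hY1⟩

end Cfsg.Agent.H649.PwO
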