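import Mathlib
import Cfsg.Agent.H649.PwO.MinusTT
import Cfsg.Agent.H126.PwO.Mat
import Cfsg.Agent.H937.PwO.MinusFN

/-!
# S2465, orthogonal groups of minus type over fields of order `2` and `3`, Witt index `≥ 4`

The factorization of the corner in `SL_(m-1)(q)` (helper126) is a hypothesis here.
-/

set_option autoImplicit false
set_option linter.unusedSectionVars false

namespace Cfsg.Agent.H649.PwO

open QuadraticMap Matrix Cfsg.Agent.LieClassical.OrthCore Cfsg.Agent.LieClassical.OrthTrans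
  Cfsg.Agent.LieClassical.OrthFinite Cfsg.Agent.LieClassical.OrthForms Cfsg.Agent.H140.OreO Cfsg.Agent.H126.PwO Module
open Cfsg.Agent.H78.Pw (All)
open Cfsg.Agent.H434.Corn (MaxTS)

variable {F V : Type*} [Field F] [AddCommGroup V] [Module F V] {k : ℕ} {Q : QuadraticForm F V}

/-- **Witt index `k + 1`, `q = 2, 3`** -/
theorem prO_minus_tt [Finite F] [FiniteDimensional F V] (hF : Nat.card F = 2 ∨ Nat.card F = 3) (hk : 1 ≤ k)
    (hQ : Nondeg Q) (hV : finrank F V = 2 * (k + 1) + 2) (hm : ∀ W, MaxTS Q W → finrank F W = k + 1)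
    (hfac : ∀ (u u' : Fin k → V) (A : Matrix (Fin k) (Fin k) F), A.det = 1 →
      (A = 1 ∨ ∀ c : F, A ≠ c • (1 : Matrix (Fin k) (Fin k) F)) →
        Fac 6 (Fv : (perp Q u u' ≃ₗ[F] perp Q u u') → Prop) A)
    {g : V ≃ₗ[F] V} (hg : g ∈ O Q) (hB : BaseCorner (k + 1) Q g) : PrO 6 Q g := by
  obtain ⟨w, w', hf, hS, hdet, hA⟩ := hB
  obtain ⟨u, u', hu, h1, h2, h3⟩ := minus_frame hF hQ hk hV hf
    (fun v hv hv0 => congrArg Subtype.val (H937.PwO.perp_aniso hf hm ⟨v, hv⟩ hv0)) hg hS hdet (hA.imp id And.left)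
  exact prO_fac (by omega) hQ hu hg (hfac u u' _ h1 h2) (k := 5) (by decide) (by norm_num) (fun x hx => hx.pow) h3

/-- **`PΩ⁻`, `q = 2, 3`** -/
theorem all_minus_tt {F : Type*} [Field F] [Finite F] (hF : Nat.card F = 2 ∨ Nat.card F = 3) {k : ℕ} (hk : 3 ≤ k)
    {a b : F} (hab : ∀ z₁ z₂ : F, z₁ ^ 2 + a * z₁ * z₂ + b * z₂ ^ 2 = 0 → z₁ = 0 ∧ z₂ = 0)
    (hfac : ∀ (u u' : Fin k → ((Fin (k + 1) ⊕ Fin (k + 1)) ⊕ Fin 2 → F)) (A : Matrix (Fin k) (Fin k) F), A.det = 1 →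
      (A = 1 ∨ ∀ c : F, A ≠ c • (1 : Matrix (Fin k) (Fin k) F)) →
        Fac 6 (Fv : (perp (minusForm (k + 1) F a b) u u' ≃ₗ[F] perp (minusForm (k + 1) F a b) u u') → Prop) A) :
    All 6 (Cfsg.POmega F (Cfsg.quadFormMinus (k + 1) F a b)) :=
  H124.PwO.all_minus' (by omega) hab fun _ hg _ hB =>
    prO_minus_tt hF (by omega) (nondeg_minusForm (k + 1) F a b hab) H124.PwO.finrank_minus
      (fun _ hW => H124.PwO.maxTS_minus hab hW) hfac (Subgroup.commutator_le_self _ hg) hB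

end Cfsg.Agent.H649.PwO
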